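import Cfsg.Agent.H972.CS.Main
import Cfsg.Agent.H795.Untw

/-!
# Centralisers in `E₆(4)`: elements of the split torus (S5745, helper406)

* `bound_extra` : `H972.CS.Main.bound` with one more conclusion: if `w = 1`, then `x` is conjugate under `Y^σ` to an
  element `t` of the torus with `χ_y(t) = 1 ↔ f y = 0`;
* `bound_setup_extra` : for the groups with a `Setup`: this `t` is in the image of the finite group;
* `cX_lam` : for the image of `E₆(F)`, `|F| = 4`, the value of a character in `3P` is `1`.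
-/

set_option autoImplicit false
set_option linter.unusedSectionVars false

namespace Cfsg.Agent.H406.CS

open CoxeterSystem Cfsg Cfsg.Lie Cfsg.Lie.ChevalleyDatum
open Cfsg.Agent.ChevalleyStructure Cfsg.Agent.ChevalleyStructure.Elts Cfsg.Agent.ChevalleyStructure.CoxeterGeom
  Cfsg.Agent.ChevalleyStructure.CoxeterGeomTypes Cfsg.Agent.ChevalleyStructure.NPerm
open Cfsg.Agent.Tits.Roots Cfsg.Agent.Tits.Core Cfsg.Agent.Nodes Cfsg.Agent.Nodes.Reps Cfsg.Agent.Nodes.BNOf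
  Cfsg.Agent.Nodes.RGDChev
open Cfsg.Agent.KFacts.RgdField Cfsg.Agent.KFacts.RgdChevCoord
open Cfsg.Agent.BpExc Cfsg.Agent.BpExc.TorCent Cfsg.Agent.BpExc.TorChev Cfsg.Agent.BpExc.Tow
  Cfsg.Agent.BpExc.TowChev Cfsg.Agent.BpExc.Fr Cfsg.Agent.BpExc.Pair Cfsg.Agent.BpExc.LangFr Cfsg.Agent.GpExc.Field
  Cfsg.Agent.BpExc.NInst Cfsg.Agent.BpExc.NChev Cfsg.Agent.H129.TorusChar Cfsg.Agent.H129.TorusMain
  Cfsg.Agent.H129.TorusUntw Cfsg.Agent.H972.CS Cfsg.Agent.H972.CS.Count Cfsg.Agent.H972.CS.Torus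
  Cfsg.Agent.H972.CS.Main

universe u v

section

variable {D : ChevalleyDatum} {l : ℕ} {M : CoxeterMatrix (Fin l)} (hp : IsType D l M) {k : Type u} [Field k]
  {W : Type*} [Group W] (cs : CoxeterSystem M W)

/-- **The formula, with the case `w = 1`.** -/
theorem bound_extra [IsAlgClosed k] (hk : LocFin k) {r e : ℕ} [Fact r.Prime] [CharP k r] (he : 0 < e)
    {σ : MulAut ↥(D.group k)} (hσ : IsFrob r e σ) {g : (Fin l → ℤ) ≃+ (Fin l → ℤ)}
    (F : Fr cs hp.isCartan (TT D k) (XX D l k) σ g) {d' : ℕ} {B' : Fin l → Fin l → ℤ} (hB : InvC D l d' B')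
    (hd' : d' ≠ 0) {s : ℕ} (hs : s.Prime) (hsr : s ≠ r) {Rf : Set ((Fin l → ℤ) →+ ZMod s)}
    (hRf : Meets hp cs Rf) {x z t : ↥(D.group k)} (hx : σ x = x) (hxs : x ^ s = 1) (hx1 : x ≠ 1) (ht : t ∈ TT D k)
    (e0 : z⁻¹ * x * z = t) [Finite ↥(fixC σ x)] :
    ∃ f ∈ Rf, f ≠ 0 ∧ ∃ w : W, Pair hp cs g (r ^ e) s f w ∧
      (w = 1 → ∃ v t1 : ↥(D.group k), σ v = v ∧ t1 ∈ TT D k ∧ t1 = v * x * v⁻¹ ∧ ∀ y, cX hp t1 y = 1 ↔ f y = 0) ∧
      ∀ Cw : Finset W, Cov hp cs g f w Cw → Nat.card ↥(fixC σ x) ≤ val hp cs g (r ^ e) f w Cw := by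
  classical
  have := finite_W hp cs
  have hN : NSys M (TT D k) (nc hp k) := nsys_of_locFin hp cs hk r
  have hsk : (s : k) ≠ 0 := by
    intro h0
    have h1 := (CharP.cast_eq_zero_iff k r s).1 h0
    exact hsr ((Nat.prime_dvd_prime_iff_eq (Fact.out : r.Prime) hs).1 h1).symm
  have hts : t ^ s = 1 := by
    have e1 : t = z⁻¹ * x * z⁻¹⁻¹ := by rw [inv_inv, e0]
    rw [e1, conj_pow, hxs, mul_one, inv_inv, inv_mul_cancel]
  -- the conjugate of `t`
  obtain ⟨f0, hf0⟩ := exists_add hp hs hsk ht hts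
  obtain ⟨v0, hv0⟩ := hRf f0
  have H := tow (k := k) hp cs hk r
  obtain ⟨m, -, hm0⟩ := H.exists_rp v0⁻¹
  have hm : Rp cs hN v0⁻¹ m := by
    have key : ∀ (T : Subgroup ↥(D.group k)) (h1 : NSys M T (nc hp k)) (h2 : T = TT D k),
        Rp cs h1 v0⁻¹ m → Rp cs hN v0⁻¹ m := by
      intro T h1 h2 h3
      subst h2
      exact h3
    exact key _ _ (TL_eq hp hk) hm0
  set t1 : ↥(D.group k) := m * t * m⁻¹ with ht1
  have ht1T : t1 ∈ TT D k := (Subgroup.mem_normalizer_iff.1 hm.mem_normalizer t).1 ht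
  set f : (Fin l → ℤ) →+ ZMod s := f0.comp (rep cs hp.isCartan v0).toAddMonoidHom with hf
  have hcX : ∀ y, cX hp t1 y = 1 ↔ f y = 0 := by
    intro y
    have h1 := cX_rp hp cs hk r hm ht (rep cs hp.isCartan v0 y)
    rw [rep_inv_apply] at h1
    rw [ht1, h1]
    exact hf0 _
  have e1 : x = z * m⁻¹ * t1 * (z * m⁻¹)⁻¹ := by
    rw [ht1, ← e0]; group
  obtain ⟨z2, n, w, e2, e3, hn, hnt, hpos⟩ := frame_of hp cs hk he hσ F hB hd' hN hx ht1T e1
  refine ⟨f, hv0, ?_, w, ⟨?_, ?_⟩, ?_, ?_⟩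
  · intro hf00
    apply hx1
    have h2 : t1 = 1 := by
      refine cX_inj hp ht1T (one_mem _) fun i => ?_
      rw [cX_one, hcX, hf00]
      rfl
    rw [e1, h2]; group
  · intro y
    have h1 := (tau_iff hp cs hk hσ F hn ht1T).1 hnt y
    have hM := isMC_cX hp ht1T
    have h2 : cX hp t1 (theta hp cs w g y - (r ^ e) • y) = 1 := by
      rw [hM.sub, h1, hM.nsmul, div_self (pow_ne_zero _ (hM.ne_zero y))]
    rw [hcX, map_sub, sub_eq_zero, map_nsmul] at h2
    exact h2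
  · intro a ha h0 hfa
    refine hpos a ⟨ha, ?_⟩ h0
    rw [← cX_root hp cs ht1T ha]
    exact (hcX a).2 hfa
  · -- the case `w = 1`
    rintro rfl
    have hnT : n ∈ TT D k := by
      have h1 := (rp_one (cs := cs) (hN := hN)).unique hn
      rwa [inv_one, one_mul] at h1
    obtain ⟨s', hs', e4⟩ := Cfsg.Agent.H720.TorusReal.torus_lang hp cs he hσ F hB hd' (c := n⁻¹) (inv_mem hnT)
    have hσs : σ s' ∈ TT D k := (F.tor s').2 hs'
    have e5 : n * s' = σ s' := by rw [e4, mul_inv_cancel_left, ← e4]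
    have e6 : σ z2 = z2 * n := by rw [e3]; group
    have e7 : s' * t1 = t1 * s' := TT_comm hp s' hs' t1 ht1T
    have e8 : σ s' * s'⁻¹ = s'⁻¹ * σ s' := by
      have h1 := TT_comm hp (σ s') hσs s'⁻¹ (inv_mem hs')
      exact h1
    have e9 : n = s'⁻¹ * σ s' := by rw [← e8, ← e5]; group
    refine ⟨s' * z2⁻¹, t1, ?_, ht1T, ?_, hcX⟩
    · have h1 : σ (z2 * s'⁻¹) = z2 * s'⁻¹ := by
        rw [map_mul, map_inv, e6, e9]; group
      have h2 : σ ((z2 * s'⁻¹)⁻¹) = (z2 * s'⁻¹)⁻¹ := by rw [map_inv, h1]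
      rwa [mul_inv_rev, inv_inv] at h2
    · rw [e2]
      calc t1 = t1 * s' * s'⁻¹ := by group
        _ = s' * t1 * s'⁻¹ := by rw [← e7]
        _ = _ := by group
  · intro Cw hCw
    -- the twisted frame automorphism
    have Fτ : Fr cs hp.isCartan (TT D k) (XX D l k) (MulAut.conj n * σ) (g.trans (repAut cs hp.isCartan w)) :=
      (Cfsg.Agent.H720.TorusReal.fr_conj hp cs hk r hn).mul F
    have hτσ : IsFrob r e (MulAut.conj n * σ) := hσ.conj_mul _
    have hτt : (MulAut.conj n * σ) t1 = t1 := hnt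
    have E : ↥(fixC (MulAut.conj n * σ) t1) ≃* ↥(fixC σ x) :=
      fixEquiv (z := z2) (by rw [e2]; group) e3.symm
    have hfin : Finite ↥(fixC (MulAut.conj n * σ) t1) := Finite.of_equiv _ E.symm.toEquiv
    have hSx : ∀ a, a ∈ Sx cs hp.isCartan (ch hp) t1 ↔ IsRoot cs hp.isCartan a ∧ f a = 0 := by
      intro a
      constructor
      · rintro ⟨ha, h1⟩
        exact ⟨ha, (hcX a).1 (by rw [cX_root hp cs ht1T ha]; exact h1)⟩
      · rintro ⟨ha, h1⟩
        exact ⟨ha, by rw [← cX_root hp cs ht1T ha]; exact (hcX a).2 h1⟩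
    have hmain := card_fixC_le hp cs hk ht1T he hτσ Fτ hτt hpos Cw (fun v hv1 hv2 => by
      refine hCw v ?_ ?_
      · have h3 : ∀ i, f (rep cs hp.isCartan v (sr i)) = f (sr i) := by
          intro i
          have hri := isRoot_sr cs hp.isCartan i
          have h4 := hv1 _ hri
          have hM := isMC_cX hp ht1T
          rw [← cX_root hp cs ht1T (hri.act v), ← cX_root hp cs ht1T hri] at h4
          have h5 : cX hp t1 (rep cs hp.isCartan v (sr i) - sr i) = 1 := by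
            rw [hM.sub, h4, div_self (hM.ne_zero _)]
          rw [hcX, map_sub, sub_eq_zero] at h5
          exact h5
        intro y
        rw [eq_sum_sr y, map_sum, map_sum, map_sum]
        refine Finset.sum_congr rfl fun i _ => ?_
        rw [map_zsmul, map_zsmul, map_zsmul, h3]
      · have h3 : ∀ i, rep cs hp.isCartan v (theta hp cs w g (sr i)) = theta hp cs w g (rep cs hp.isCartan v (sr i)) :=
          fun i => hv2 _ (isRoot_sr cs hp.isCartan i)
        intro y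
        rw [eq_sum_sr y, map_sum, map_sum, map_sum, map_sum]
        refine Finset.sum_congr rfl fun i _ => ?_
        rw [map_zsmul, map_zsmul, map_zsmul, map_zsmul, h3])
    rw [← Nat.card_congr E.toEquiv]
    refine hmain.trans ?_
    have hT := (card_TF_le hp cs he hτσ Fτ).2
    have e5 : (g.trans (repAut cs hp.isCartan w)).toAddMonoidHom = theta hp cs w g := rfl
    rw [e5] at hT
    have e6 : SP (Sx cs hp.isCartan (ch hp) t1) = psi cs hp.isCartan f := by
      ext a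
      constructor
      · rintro ⟨h1, h2⟩
        exact ⟨((hSx a).1 h1).1, h2, ((hSx a).1 h1).2⟩
      · rintro ⟨h1, h2, h3⟩
        exact ⟨(hSx a).2 ⟨h1, h3⟩, h2⟩
    have e7 : ∀ v : W, NormalForm.NW cs hp.isCartan v ∩ Sx cs hp.isCartan (ch hp) t1 = psiN cs hp.isCartan f v := by
      intro v
      ext a
      constructor
      · rintro ⟨⟨h1, h2, h3⟩, h4⟩
        exact ⟨h1, h2, ((hSx a).1 h4).2, h3⟩
      · rintro ⟨h1, h2, h3, h4⟩
        exact ⟨⟨h1, h2, h4⟩, (hSx a).2 ⟨h1, h3⟩⟩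
    rw [e6]
    simp only [e7]
    exact Nat.mul_le_mul_right _ hT

end

section

open Cfsg.Agent.H795.Core

variable {D : ChevalleyDatum} {l : ℕ} {M : CoxeterMatrix (Fin l)} {hp : IsType D l M}
  {k : Type u} [Field k] [IsAlgClosed k] (hk : LocFin k) {r : ℕ} [Fact r.Prime] [CharP k r]
  {G : Type v} [Group G] [Finite G] {p e : ℕ} {φ : G →* ↥(D.group k)} {σ : MulAut ↥(D.group k)}
  {g : (Fin l → ℤ) ≃+ (Fin l → ℤ)}

include hk in
/-- **The formula for the groups with a `Setup`, with the case `w = 1`.** -/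
theorem bound_setup_extra (h : Setup hp p r e φ σ g) {d' : ℕ} {B' : Fin l → Fin l → ℤ} (hB : InvC D l d' B')
    (hd' : d' ≠ 0) {s : ℕ} (hs : s.Prime) (hsr : s ≠ r) {Rf : Set ((Fin l → ℤ) →+ ZMod s)}
    (hRf : Meets hp M.toCoxeterSystem Rf) {x : G} (hxs : x ^ s = 1) (hx1 : x ≠ 1) {z t : ↥(D.group k)}
    (hz : z⁻¹ * φ x * z = t) (ht : t ∈ TT D k) :
    ∃ f ∈ Rf, f ≠ 0 ∧ ∃ w : M.Group, Pair hp M.toCoxeterSystem g (r ^ e) s f w ∧
      (w = 1 → ∃ x' : G, φ x' ∈ TT D k ∧ ∀ y, cX hp (φ x') y = 1 ↔ f y = 0) ∧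
      ∀ Cw : Finset M.Group, Cov hp M.toCoxeterSystem g f w Cw →
        Nat.card ↥(Subgroup.centralizer {x}) ≤ val hp M.toCoxeterSystem g (r ^ e) f w Cw := by
  classical
  have hfin : Finite ↥(fixC σ (φ x)) := by
    have := h.fin
    exact Finite.of_injective (fun y : ↥(fixC σ (φ x)) => (⟨y.1, (mem_fixC.1 y.2).1⟩ : {y : ↥(D.group k) // σ y = y}))
      (fun a b hab => Subtype.ext (congrArg (fun z : {y : ↥(D.group k) // σ y = y} => z.1) hab))
  obtain ⟨f, h1, h2, w, h3, h5, h4⟩ := bound_extra hp M.toCoxeterSystem hk h.e_pos h.frob h.fr hB hd' hs hsr hRf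
    (h.fix x) (by rw [← map_pow, hxs, map_one]) (fun h0 => hx1 (h.inj (by rw [h0, map_one]))) ht hz
  refine ⟨f, h1, h2, w, h3, fun hw => ?_, fun Cw hCw => le_trans ?_ (h4 Cw hCw)⟩
  · obtain ⟨v, t1, hv, ht1, e1, hc⟩ := h5 hw
    obtain ⟨x', hx'⟩ := h.norm v hv x
    refine ⟨x', ?_, ?_⟩
    · rw [hx', ← e1]; exact ht1
    · rw [hx', ← e1]; exact hc
  let F : ↥(Subgroup.centralizer {x}) → ↥(fixC σ (φ x)) := fun y => ⟨φ y, mem_fixC.2 ⟨h.fix y, by
    rw [← map_mul, ← map_mul, Subgroup.mem_centralizer_singleton_iff.1 y.2]⟩⟩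
  refine Nat.card_le_card_of_injective F fun a b hab => ?_
  apply Subtype.ext
  apply h.inj
  exact congrArg (fun z : ↥(fixC σ (φ x)) => (z : ↥(D.group k))) hab

end

section lam

variable {D : ChevalleyDatum} {l : ℕ} {M : CoxeterMatrix (Fin l)} (hp : IsType D l M) {k : Type u} [Field k]

/-- the characters divisible by `m` in the weight lattice are `m`-th powers on the torus of the finite group -/
theorem cX_lam [IsAlgClosed k] (hk : LocFin k) {r : ℕ} [Fact r.Prime] [CharP k r] {F : Type u} [Field F] [Fintype F]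
    (f : F →+* k) {m : ℕ} (hF : Fintype.card F = m + 1) {x' : ↥(D.group F)} (hx : emb hp.inList f x' ∈ TT D k)
    {lam : Fin l → ℤ} (hl : ∀ i < D.rank, (m : ℤ) ∣ ∑ j : Fin l, D.cartan i (D.simple j) * lam j) :
    cX hp (emb hp.inList f x') lam = 1 := by
  classical
  have hfin : Finite ↥f.fieldRange := Finite.of_surjective (fun a : F => (⟨f a, a, rfl⟩ : ↥f.fieldRange)) (by
    rintro ⟨y, a, rfl⟩
    exact ⟨a, rfl⟩)
  let E : Lev k := ⟨f.fieldRange, hfin⟩
  have hcard : Nat.card ↥E.1 = m + 1 := by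
    rw [← hF, ← Nat.card_eq_fintype_card]
    exact (Nat.card_congr (Equiv.ofBijective (fun a : F => (⟨f a, a, rfl⟩ : ↥f.fieldRange))
      ⟨fun a b hab => f.injective (congrArg Subtype.val hab), by
        rintro ⟨y, a, rfl⟩
        exact ⟨a, rfl⟩⟩)).symm
  have h1 : emb hp.inList f x' ∈ (emb hp.inList E.1.subtype).range := by
    refine ⟨emb hp.inList (f.rangeRestrictField) x', ?_⟩
    rw [emb_comp]
    rfl
  have h2 := (HX.mem_Tj hp M.toCoxeterSystem hk r (E := E)).2 ⟨hx, h1⟩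
  obtain ⟨y, hy, ey⟩ := h2
  rw [← ey]
  have hy' := hy
  have hy2 : y ∈ TT D ↥E.1 := hy
  have hyd : (y : GL D.Idx ↥E.1) ∈ D.diagonalSubgroup ↥E.1 := Subgroup.mem_subgroupOf.1 hy2
  obtain ⟨c, hc, -, hact⟩ := Cfsg.Agent.H129.Tor.exists_c hp hyd
  have key : ∀ s, s < D.nroots → ch hp (vec D l s) y = ∏ i ∈ Finset.range D.rank, c i ^ D.cartan i s := by
    intro s hs
    apply ch_eq hp hs hy2
    apply Subtype.ext
    rw [Subgroup.coe_mul, Subgroup.coe_mul, Subgroup.coe_inv, coe_xc hp hs, coe_xc hp hs, hact s hs, mul_one]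
  have h3 : ∀ j : Fin l, cX hp (emb hp.inList E.1.subtype y) (sr j) =
      E.1.subtype (∏ i ∈ Finset.range D.rank, c i ^ D.cartan i (D.simple j)) := by
    intro j
    rw [cX_sr, ← vec_simple hp j, emb_ch hp E.1.subtype (simple_lt hp.inList (lt_rank hp j)) hy2,
      key _ (simple_lt hp.inList (lt_rank hp j))]
  have hM := isMC_cX hp (emb_T hp E.1.subtype ⟨y, hy2, rfl⟩)
  have hE1 : ∀ a : ↥E.1, a ≠ 0 → a ^ m = 1 := by
    intro a ha
    have := Fintype.ofFinite ↥E.1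
    have h4 := FiniteField.pow_card_sub_one_eq_one a ha
    rw [← Nat.card_eq_fintype_card, hcard, Nat.add_sub_cancel] at h4
    exact h4
  rw [hM.eq_prod]
  have h5 : ∀ j : Fin l, cX hp (emb hp.inList E.1.subtype y) (sr j) ^ lam j =
      E.1.subtype (∏ i ∈ Finset.range D.rank, c i ^ (D.cartan i (D.simple j) * lam j)) := by
    intro j
    rw [h3, ← map_zpow₀, ← Finset.prod_zpow]
    congr 1
    exact Finset.prod_congr rfl fun i _ => by rw [zpow_mul]
  rw [Finset.prod_congr rfl fun j _ => h5 j, ← map_prod, Finset.prod_comm]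
  have h6 : ∀ i ∈ Finset.range D.rank, ∏ j : Fin l, c i ^ (D.cartan i (D.simple j) * lam j) = 1 := by
    intro i hi
    have hi' := Finset.mem_range.1 hi
    obtain ⟨n, hn⟩ := hl i hi'
    have h7 : ∏ j : Fin l, c i ^ (D.cartan i (D.simple j) * lam j) =
        c i ^ (∑ j : Fin l, D.cartan i (D.simple j) * lam j) := by
      have h8 : ∀ S : Finset (Fin l), ∏ j ∈ S, c i ^ (D.cartan i (D.simple j) * lam j) =
          c i ^ (∑ j ∈ S, D.cartan i (D.simple j) * lam j) := by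
        intro S
        induction S using Finset.induction_on with
        | empty => simp
        | insert a S ha ih => rw [Finset.prod_insert ha, Finset.sum_insert ha, zpow_add₀ (hc i hi'), ih]
      exact h8 _
    rw [h7, hn, zpow_mul, zpow_natCast, hE1 _ (hc i hi'), one_zpow]
  rw [Finset.prod_congr rfl h6, Finset.prod_const_one, map_one]

end lam

end Cfsg.Agent.H406.CS
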